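import Mathlib

/-!
# Jordan complements (basic facts), for Marggraf's theorem (S3620)
-/

set_option autoImplicit false

namespace Cfsg.Agent.Lib.Helper66.Mg

open scoped Pointwise

section basic

variable (G : Type*) {Ω : Type*} [Group G] [MulAction G Ω] [DecidableEq Ω]

/-- `X` is a Jordan complement: the pointwise stabilizer of `X` is transitive on the complement
of `X`. -/
def JC (X : Finset Ω) : Prop :=
  ∀ a, a ∉ X → ∀ b, b ∉ X → ∃ g : G, (∀ x ∈ X, g • x = x) ∧ g • a = b

variable {G}

theorem JC.smul {X : Finset Ω} (h : JC G X) (g : G) : JC G (g • X) := by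
  intro a ha b hb
  have ha' : g⁻¹ • a ∉ X := by rwa [Finset.inv_smul_mem_iff]
  have hb' : g⁻¹ • b ∉ X := by rwa [Finset.inv_smul_mem_iff]
  obtain ⟨k, hk, hkab⟩ := h _ ha' _ hb'
  refine ⟨g * k * g⁻¹, ?_, ?_⟩
  · intro x hx
    have hx' : g⁻¹ • x ∈ X := by rwa [Finset.inv_smul_mem_iff]
    rw [mul_smul, mul_smul, hk _ hx', smul_inv_smul]
  · rw [mul_smul, mul_smul, hkab, smul_inv_smul]

theorem JC.of_smul {X : Finset Ω} {g : G} (h : JC G (g • X)) : JC G X := by
  have := h.smul g⁻¹
  rwa [inv_smul_smul] at this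

theorem JC.inter {X Y : Finset Ω} (hX : JC G X) (hY : JC G Y) {z : Ω} (hzX : z ∉ X)
    (hzY : z ∉ Y) : JC G (X ∩ Y) := by
  have key : ∀ a, a ∉ X ∩ Y → ∃ g : G, (∀ x ∈ X ∩ Y, g • x = x) ∧ g • a = z := by
    intro a ha
    rw [Finset.mem_inter, not_and_or] at ha
    rcases ha with ha | ha
    · obtain ⟨g, hg, hga⟩ := hX a ha z hzX
      exact ⟨g, fun x hx => hg x (Finset.mem_inter.mp hx).1, hga⟩
    · obtain ⟨g, hg, hga⟩ := hY a ha z hzY
      exact ⟨g, fun x hx => hg x (Finset.mem_inter.mp hx).2, hga⟩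
  intro a ha b hb
  obtain ⟨g, hg, hga⟩ := key a ha
  obtain ⟨k, hk, hkb⟩ := key b hb
  refine ⟨k⁻¹ * g, ?_, ?_⟩
  · intro x hx
    rw [mul_smul, hg x hx, inv_smul_eq_iff, hk x hx]
  · rw [mul_smul, hga, inv_smul_eq_iff, hkb]

omit [DecidableEq Ω] in
/-- An element fixing `X` pointwise maps the complement of `X` to itself. -/
theorem notMem_of_fix {X : Finset Ω} {g : G} (hg : ∀ x ∈ X, g • x = x) {a : Ω} (ha : a ∉ X) :
    g • a ∉ X := by
  intro h
  have := hg _ h
  rw [smul_left_cancel_iff] at this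
  exact ha (this ▸ h)

theorem smul_finset_eq_of_fix {X : Finset Ω} {g : G} (hg : ∀ x ∈ X, g • x = x) : g • X = X := by
  ext y
  constructor
  · intro hy
    obtain ⟨x, hx, rfl⟩ := Finset.mem_smul_finset.mp hy
    rw [hg x hx]; exact hx
  · intro hy
    exact Finset.mem_smul_finset.mpr ⟨y, hy, hg y hy⟩

/-- All sets with fewer than `j` points are Jordan complements. -/
def AllJ (G : Type*) (Ω : Type*) [Group G] [MulAction G Ω] [DecidableEq Ω] (j : ℕ) : Prop :=
  ∀ X : Finset Ω, X.card < j → JC G X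

theorem AllJ.mono {i j : ℕ} (h : AllJ G Ω j) (hij : i ≤ j) : AllJ G Ω i :=
  fun X hX => h X (lt_of_lt_of_le hX hij)

/-- Homogeneity: if all sets with fewer than `t` points are Jordan complements, any two sets
of the same size at most `t` are translates of each other. -/
theorem homog {t : ℕ} (h : AllJ G Ω t) :
    ∀ (m : ℕ) (S T : Finset Ω), (S \ T).card = m → S.card = T.card → S.card ≤ t →
      ∃ g : G, g • S = T := by
  intro m
  induction m with
  | zero =>
    intro S T hm hc _
    refine ⟨1, ?_⟩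
    rw [one_smul]
    have hsub : S ⊆ T := by
      rw [← Finset.sdiff_eq_empty_iff_subset]; exact Finset.card_eq_zero.mp hm
    exact Finset.eq_of_subset_of_card_le hsub hc.ge
  | succ m ih =>
    intro S T hm hc ht
    have hne : (S \ T).Nonempty := by rw [← Finset.card_pos]; omega
    obtain ⟨a, ha⟩ := hne
    have haS := (Finset.mem_sdiff.mp ha).1
    have haT := (Finset.mem_sdiff.mp ha).2
    have hTS : (T \ S).Nonempty := by
      rw [← Finset.card_pos]
      have h1 := Finset.card_sdiff_add_card_inter S T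
      have h2 := Finset.card_sdiff_add_card_inter T S
      rw [Finset.inter_comm] at h2
      omega
    obtain ⟨b, hb⟩ := hTS
    have hbT := (Finset.mem_sdiff.mp hb).1
    have hbS := (Finset.mem_sdiff.mp hb).2
    have hcard : (S.erase a).card < t := by
      rw [Finset.card_erase_of_mem haS]
      have : 0 < S.card := Finset.card_pos.mpr ⟨a, haS⟩
      omega
    obtain ⟨g, hg, hgab⟩ := h (S.erase a) hcard a (by simp) b
      (fun hh => hbS (Finset.mem_of_mem_erase hh))
    have hgS : g • S = insert b (S.erase a) := by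
      conv_lhs => rw [← Finset.insert_erase haS]
      rw [Finset.smul_finset_insert, hgab, smul_finset_eq_of_fix hg]
    have hbn : b ∉ S.erase a := fun hh => hbS (Finset.mem_of_mem_erase hh)
    have hsd : (g • S) \ T = (S \ T).erase a := by
      rw [hgS]
      ext x
      simp only [Finset.mem_sdiff, Finset.mem_insert, Finset.mem_erase]
      constructor
      · rintro ⟨h1 | ⟨h1, h2⟩, h3⟩
        · exact absurd (h1 ▸ hbT) h3
        · exact ⟨h1, h2, h3⟩
      · rintro ⟨h1, h2, h3⟩
        exact ⟨Or.inr ⟨h1, h2⟩, h3⟩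
    obtain ⟨k, hk⟩ := ih (g • S) T (by rw [hsd, Finset.card_erase_of_mem ha, hm]; rfl)
      (by rw [Finset.card_smul_finset]; exact hc) (by rw [Finset.card_smul_finset]; exact ht)
    exact ⟨k * g, by rw [mul_smul]; exact hk⟩

theorem homog' {t : ℕ} (h : AllJ G Ω t) (S T : Finset Ω) (hc : S.card = T.card)
    (ht : S.card ≤ t) : ∃ g : G, g • S = T :=
  homog h _ S T rfl hc ht

end basic

section kernel

variable {G : Type*} {Ω : Type*} [Group G] [MulAction G Ω] [DecidableEq Ω] [Fintype Ω]

/-- In a quasiprimitive group, no nontrivial element fixes (setwise) all translates of a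
nonempty proper subset. -/
theorem no_kernel
    (hqp : ∀ N : Subgroup G, N.Normal → N ≠ ⊥ → MulAction.IsPretransitive ↥N Ω)
    (B : Finset Ω) (hne : B.Nonempty) (hproper : B ≠ Finset.univ) (h : G) (h1 : h ≠ 1)
    (hfix : ∀ g : G, h • (g • B) = g • B) : False := by
  let N : Subgroup G :=
    { carrier := {x | ∀ g : G, x • (g • B) = g • B}
      one_mem' := fun g => one_smul _ _
      mul_mem' := by
        intro x y hx hy g
        show (x * y) • (g • B) = g • B
        rw [mul_smul, hy g, hx g]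
      inv_mem' := by
        intro x hx g
        show x⁻¹ • (g • B) = g • B
        rw [inv_smul_eq_iff, hx g] }
  have hN : N.Normal := by
    constructor
    intro x hx y g
    show (y * x * y⁻¹) • (g • B) = g • B
    have := hx (y⁻¹ * g)
    rw [mul_smul, mul_smul, ← mul_smul y⁻¹ g, this, mul_smul, smul_inv_smul]
  have hNne : N ≠ ⊥ := by
    intro hbot
    have : h ∈ N := hfix
    rw [hbot, Subgroup.mem_bot] at this
    exact h1 this
  have htr := hqp N hN hNne
  obtain ⟨a, ha⟩ := hne
  have hex : ∃ b, b ∉ B := by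
    by_contra hcon
    push Not at hcon
    exact hproper (Finset.eq_univ_iff_forall.mpr hcon)
  obtain ⟨b, hb⟩ := hex
  obtain ⟨n, hn⟩ := htr.exists_smul_eq a b
  have hnB : (n : G) • B = B := by
    have := n.2 1
    rwa [one_smul] at this
  apply hb
  rw [← hn, ← hnB]
  exact (Finset.smul_mem_smul_finset_iff (n : G)).mpr ha

end kernel

section minimal

variable {G : Type*} {Ω : Type*} [Group G] [MulAction G Ω] [DecidableEq Ω] [Fintype Ω]

/-- The data of a minimal Jordan complement `L₀` properly containing a `(t-1)`-set `Sg`, in a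
group all of whose sets with fewer than `t` points are Jordan complements. -/
structure MinData (G : Type*) {Ω : Type*} [Group G] [MulAction G Ω] [DecidableEq Ω]
    (t : ℕ) (Sg L₀ : Finset Ω) : Prop where
  hAll : AllJ G Ω t
  hS : Sg.card + 1 = t
  hSL : Sg ⊆ L₀
  hL : JC G L₀
  hLcard : t + 1 ≤ L₀.card
  hmin : ∀ Y, JC G Y → Sg ⊆ Y → Y ⊆ L₀ → Y = Sg ∨ Y = L₀

theorem exists_notMem_union (A B : Finset Ω) (h : (A ∪ B).card < Fintype.card Ω) :
    ∃ z, z ∉ A ∧ z ∉ B := by
  by_contra hcon
  push Not at hcon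
  have : A ∪ B = Finset.univ := by
    rw [Finset.eq_univ_iff_forall]
    intro x
    by_cases hx : x ∈ A
    · exact Finset.mem_union_left _ hx
    · exact Finset.mem_union_right _ (hcon x hx)
  rw [this, Finset.card_univ] at h
  exact lt_irrefl _ h

theorem MinData.min_smul {t : ℕ} {Sg L₀ : Finset Ω} (D : MinData G t Sg L₀) (g : G)
    (Y : Finset Ω) (hY : JC G Y) (h1 : g • Sg ⊆ Y) (h2 : Y ⊆ g • L₀) :
    Y = g • Sg ∨ Y = g • L₀ := by
  have h2' : g⁻¹ • Y ⊆ L₀ := by
    rw [Finset.smul_finset_subset_iff, inv_inv]; exact h2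
  rcases D.hmin (g⁻¹ • Y) (hY.smul g⁻¹) (Finset.smul_finset_subset_iff.mp h1) h2' with h | h
  · left; rw [← h, smul_inv_smul]
  · right; rw [← h, smul_inv_smul]

end minimal

end Cfsg.Agent.Lib.Helper66.Mg
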