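import Cfsg.Agent.Lib.Helper66.MgBasic

/-!
# Marggraf's theorem: the exchange argument (case A, `2 ≤ t`)
-/

set_option autoImplicit false
set_option linter.unusedSectionVars false

namespace Cfsg.Agent.Lib.Helper66.Mg

open scoped Pointwise

variable {G : Type*} {Ω : Type*} [Group G] [MulAction G Ω] [DecidableEq Ω] [Fintype Ω]

/-- `Y` is a Jordan complement with `ℓ` points, minimal over `insert x S₀`. -/
def NN (G : Type*) {Ω : Type*} [Group G] [MulAction G Ω] [DecidableEq Ω]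
    (S₀ : Finset Ω) (ℓ : ℕ) (x : Ω) (Y : Finset Ω) : Prop :=
  JC G Y ∧ insert x S₀ ⊆ Y ∧ Y.card = ℓ ∧
    ∀ Y', JC G Y' → insert x S₀ ⊆ Y' → Y' ⊆ Y → Y' = insert x S₀ ∨ Y' = Y

theorem NN.smul {S₀ : Finset Ω} {ℓ : ℕ} {x : Ω} {Y : Finset Ω} (h : NN G S₀ ℓ x Y) (g : G)
    (hg : ∀ s ∈ S₀, g • s = s) : NN G S₀ ℓ (g • x) (g • Y) := by
  obtain ⟨h1, h2, h3, h4⟩ := h
  have hins : insert (g • x) S₀ = g • insert x S₀ := by
    rw [Finset.smul_finset_insert, smul_finset_eq_of_fix hg]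
  refine ⟨h1.smul g, ?_, ?_, ?_⟩
  · rw [hins]; exact Finset.smul_finset_subset_smul_finset_iff.mpr h2
  · rw [Finset.card_smul_finset]; exact h3
  · intro Y' hY' hsub hsub'
    rw [hins] at hsub ⊢
    have hsub'' : g⁻¹ • Y' ⊆ Y := by
      rw [Finset.smul_finset_subset_iff, inv_inv]; exact hsub'
    rcases h4 (g⁻¹ • Y') (hY'.smul _) (Finset.smul_finset_subset_iff.mp hsub) hsub'' with h | h
    · left; rw [← h, smul_inv_smul]
    · right; rw [← h, smul_inv_smul]

theorem NN.eq_of {t : ℕ} {S₀ : Finset Ω} {ℓ : ℕ} {x : Ω} {Y Y' : Finset Ω}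
    (hS₀ : S₀.card + 2 = t) (hA : Fintype.card Ω + t ≤ 2 * ℓ + 1)
    (h : NN G S₀ ℓ x Y) (h' : NN G S₀ ℓ x Y') {z : Ω} (hz : z ∉ Y) (hz' : z ∉ Y') : Y = Y' := by
  obtain ⟨h1, h2, h3, h4⟩ := h
  obtain ⟨h1', h2', h3', -⟩ := h'
  have hJ := h1.inter h1' hz hz'
  have hun : (Y ∪ Y').card + 1 ≤ Fintype.card Ω := by
    have : (Y ∪ Y') ⊆ Finset.univ.erase z := by
      intro w hw
      rw [Finset.mem_erase]
      refine ⟨?_, Finset.mem_univ _⟩
      rintro rfl
      rcases Finset.mem_union.mp hw with hw | hw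
      · exact hz hw
      · exact hz' hw
    have := Finset.card_le_card this
    rw [Finset.card_erase_of_mem (Finset.mem_univ _), Finset.card_univ] at this
    have hpos : 0 < Fintype.card Ω := Fintype.card_pos_iff.mpr ⟨z⟩
    omega
  have hcard : t ≤ (Y ∩ Y').card := by
    have := Finset.card_union_add_card_inter Y Y'
    omega
  rcases h4 _ hJ (Finset.subset_inter h2 h2') Finset.inter_subset_left with hZ | hZ
  · have := Finset.card_insert_le x S₀
    rw [hZ] at hcard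
    omega
  · have hsub : Y ⊆ Y' := by rw [← hZ]; exact Finset.inter_subset_right
    exact Finset.eq_of_subset_of_card_le hsub (by omega)

/-- Case A is impossible. -/
theorem MinData.caseA {t : ℕ} {Sg L₀ : Finset Ω} (D : MinData G t Sg L₀) (ht : 2 ≤ t)
    (hA : Fintype.card Ω + t ≤ 2 * L₀.card + 1) (Γ : Finset Ω) (hΓ : 2 ≤ Γ.card)
    (hLΔ : L₀ ⊆ Γᶜ) : False := by
  have hS := D.hS
  have hLc := D.hLcard
  have hn : L₀.card + 2 ≤ Fintype.card Ω := by
    have h3 : L₀.card ≤ (Γᶜ).card := Finset.card_le_card hLΔ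
    have h4 := Finset.card_compl Γ
    have h5 : Γ.card ≤ Fintype.card Ω := Finset.card_le_univ _
    omega
  have hSgne : Sg.Nonempty := Finset.card_pos.mp (by omega)
  obtain ⟨σ, hσ⟩ := hSgne
  set S₀ := Sg.erase σ with hS₀def
  have hS₀c : S₀.card + 2 = t := by
    rw [hS₀def, Finset.card_erase_of_mem hσ]; omega
  have hσS₀ : σ ∉ S₀ := by simp [hS₀def]
  have hins : insert σ S₀ = Sg := by rw [hS₀def, Finset.insert_erase hσ]
  set ℓ := L₀.card with hℓ
  have hJS₀ : JC G S₀ := D.hAll S₀ (by omega)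
  have hJSg : JC G Sg := D.hAll Sg (by omega)
  have hbase : NN G S₀ ℓ σ L₀ := by
    refine ⟨D.hL, by rw [hins]; exact D.hSL, rfl, ?_⟩
    intro Y' hY' h1 h2
    rw [hins] at h1 ⊢
    exact D.hmin Y' hY' h1 h2
  have hexz : ∀ Y : Finset Ω, Y.card = ℓ → ∃ z, z ∉ Y := by
    intro Y hY
    by_contra hcon
    push Not at hcon
    have : Y = Finset.univ := Finset.eq_univ_iff_forall.mpr hcon
    rw [this, Finset.card_univ] at hY
    omega
  -- cover
  have hcover : ∀ x, x ∉ S₀ → ∀ z, z ∉ insert x S₀ → ∃ Y, NN G S₀ ℓ x Y ∧ z ∉ Y := by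
    intro x hx z hz
    obtain ⟨g, hg, hgσ⟩ := hJS₀ σ hσS₀ x hx
    have hz' : g⁻¹ • z ∉ Sg := by
      rw [← hins, Finset.mem_insert, not_or]
      constructor
      · intro h
        apply hz
        rw [inv_smul_eq_iff, hgσ] at h
        rw [h]; exact Finset.mem_insert_self _ _
      · intro h
        apply hz
        have := hg _ h
        rw [smul_inv_smul] at this
        rw [this]
        exact Finset.mem_insert_of_mem h
    obtain ⟨z₀, hz₀⟩ := hexz L₀ rfl
    have hz₀S : z₀ ∉ Sg := fun h => hz₀ (D.hSL h)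
    obtain ⟨k, hk, hkz⟩ := hJSg z₀ hz₀S _ hz'
    have hkS₀ : ∀ s ∈ S₀, k • s = s := fun s hs => hk s (Finset.mem_of_mem_erase hs)
    have h1 := hbase.smul k hkS₀
    rw [hk σ hσ] at h1
    have h2 := h1.smul g hg
    rw [hgσ] at h2
    refine ⟨_, h2, ?_⟩
    intro hzY
    rw [← Finset.inv_smul_mem_iff, ← hkz, Finset.smul_mem_smul_finset_iff] at hzY
    exact hz₀ hzY
  -- exchange
  have hP2 : ∀ x Y y, NN G S₀ ℓ x Y → y ∈ Y → y ∉ insert x S₀ → NN G S₀ ℓ y Y := by
    intro x Y y hY hyY hy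
    have hyS₀ : y ∉ S₀ := fun h => hy (Finset.mem_insert_of_mem h)
    obtain ⟨z, hz⟩ := hexz Y hY.2.2.1
    have hzy : z ∉ insert y S₀ := by
      intro h
      rw [Finset.mem_insert] at h
      rcases h with rfl | h
      · exact hz hyY
      · exact hz (hY.2.1 (Finset.mem_insert_of_mem h))
    obtain ⟨Y'', hY'', hzY''⟩ := hcover y hyS₀ z hzy
    have hJ := hY.1.inter hY''.1 hz hzY''
    have hyY'' : y ∈ Y'' := hY''.2.1 (Finset.mem_insert_self _ _)
    have hS₀Y'' : S₀ ⊆ Y'' := (Finset.subset_insert _ _).trans hY''.2.1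
    by_cases hx : x ∈ Y''
    · have hsub : insert x S₀ ⊆ Y ∩ Y'' := by
        apply Finset.subset_inter hY.2.1
        intro w hw
        rw [Finset.mem_insert] at hw
        rcases hw with rfl | hw
        · exact hx
        · exact hS₀Y'' hw
      rcases hY.2.2.2 _ hJ hsub Finset.inter_subset_left with hZ | hZ
      · exfalso
        apply hy
        rw [← hZ]
        exact Finset.mem_inter.mpr ⟨hyY, hyY''⟩
      · have hsub' : Y ⊆ Y'' := by rw [← hZ]; exact Finset.inter_subset_right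
        have := Finset.eq_of_subset_of_card_le hsub' (by rw [hY.2.2.1, hY''.2.2.1])
        rw [this]; exact hY''
    · exfalso
      have hsub : insert y S₀ ⊆ Y ∩ Y'' := by
        apply Finset.subset_inter _ hY''.2.1
        intro w hw
        rw [Finset.mem_insert] at hw
        rcases hw with rfl | hw
        · exact hyY
        · exact hY.2.1 (Finset.mem_insert_of_mem hw)
      rcases hY''.2.2.2 _ hJ hsub Finset.inter_subset_right with hZ | hZ
      · have hun : (Y ∪ Y'').card + 1 ≤ Fintype.card Ω := by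
          have : (Y ∪ Y'') ⊆ Finset.univ.erase z := by
            intro w hw
            rw [Finset.mem_erase]
            refine ⟨?_, Finset.mem_univ _⟩
            rintro rfl
            rcases Finset.mem_union.mp hw with hw | hw
            · exact hz hw
            · exact hzY'' hw
          have := Finset.card_le_card this
          rw [Finset.card_erase_of_mem (Finset.mem_univ _), Finset.card_univ] at this
          omega
        have h1 := Finset.card_union_add_card_inter Y Y''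
        have h2 := Finset.card_insert_le y S₀
        have h3 := hY.2.2.1
        have h4 := hY''.2.2.1
        rw [hZ] at h1
        omega
      · have hsub' : Y'' ⊆ Y := by rw [← hZ]; exact Finset.inter_subset_left
        have := Finset.eq_of_subset_of_card_le hsub' (by rw [hY.2.2.1, hY''.2.2.1])
        exact hx (this ▸ hY.2.1 (Finset.mem_insert_self _ _))
  -- two distinct members over σ
  have hb : ∃ b ∈ L₀, b ∉ Sg := by
    by_contra hcon
    push Not at hcon
    have := Finset.card_le_card hcon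
    omega
  obtain ⟨b, hbL, hbS⟩ := hb
  obtain ⟨z₀, hz₀⟩ := hexz L₀ rfl
  have hz₀S : z₀ ∉ Sg := fun h => hz₀ (D.hSL h)
  obtain ⟨g, hg, hgb⟩ := hJSg b hbS z₀ hz₀S
  have hgS₀ : ∀ s ∈ S₀, g • s = s := fun s hs => hg s (Finset.mem_of_mem_erase hs)
  have hY₂ := hbase.smul g hgS₀
  rw [hg σ hσ] at hY₂
  set Y₂ := g • L₀ with hY₂def
  have hyY₂ : z₀ ∈ Y₂ := by
    rw [← hgb]; exact (Finset.smul_mem_smul_finset_iff g).mpr hbL
  have hne : L₀ ≠ Y₂ := fun h => hz₀ (h ▸ hyY₂)
  have hcov12 : ∀ w, w ∈ L₀ ∨ w ∈ Y₂ := by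
    intro w
    by_contra hcon
    push Not at hcon
    exact hne (NN.eq_of hS₀c hA hbase hY₂ hcon.1 hcon.2)
  have hz : ∃ z ∈ L₀, z ∉ Y₂ := by
    by_contra hcon
    push Not at hcon
    exact hne (Finset.eq_of_subset_of_card_le hcon (by rw [hY₂.2.2.1]))
  obtain ⟨z, hzL, hzY₂⟩ := hz
  set y := z₀ with hydef
  have hSgY₂ : Sg ⊆ Y₂ := by rw [← hins]; exact hY₂.2.1
  have hyσ : y ∉ insert σ S₀ := by rw [hins]; exact hz₀S
  have hzσ : z ∉ insert σ S₀ := by rw [hins]; exact fun h => hzY₂ (hSgY₂ h)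
  have hyS₀ : y ∉ S₀ := fun h => hyσ (Finset.mem_insert_of_mem h)
  have hzS₀ : z ∉ S₀ := fun h => hzσ (Finset.mem_insert_of_mem h)
  have hNyY₂ := hP2 σ Y₂ y hY₂ hyY₂ hyσ
  have hNzL := hP2 σ L₀ z hbase hzL hzσ
  have hσy : σ ∉ insert y S₀ := by
    rw [Finset.mem_insert, not_or]
    exact ⟨fun h => hz₀ (h ▸ D.hSL hσ), hσS₀⟩
  obtain ⟨N, hN, hσN⟩ := hcover y hyS₀ σ hσy
  have hσY₂ : σ ∈ Y₂ := hSgY₂ hσ
  have hNY₂ : N ≠ Y₂ := fun h => hσN (h ▸ hσY₂)
  have hcovN2 : ∀ w, w ∈ N ∨ w ∈ Y₂ := by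
    intro w
    by_contra hcon
    push Not at hcon
    exact hNY₂ (NN.eq_of hS₀c hA hN hNyY₂ hcon.1 hcon.2)
  have hzN : z ∈ N := (hcovN2 z).resolve_right hzY₂
  have hzy : z ∉ insert y S₀ := by
    rw [Finset.mem_insert, not_or]
    exact ⟨fun h => hz₀ (h ▸ hzL), hzS₀⟩
  have hNzN := hP2 y N z hN hzN hzy
  have hNL : N ≠ L₀ := fun h => hσN (h ▸ D.hSL hσ)
  have hcovN1 : ∀ w, w ∈ N ∨ w ∈ L₀ := by
    intro w
    by_contra hcon
    push Not at hcon
    exact hNL (NN.eq_of hS₀c hA hNzN hNzL hcon.1 hcon.2)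
  have hall : ∀ w, w ≠ σ → w ∈ N := by
    intro w hw
    by_cases hwS₀ : w ∈ S₀
    · exact hN.2.1 (Finset.mem_insert_of_mem hwS₀)
    by_cases hwy : w = y
    · rw [hwy]; exact hN.2.1 (Finset.mem_insert_self _ _)
    have hwσ : w ∉ insert σ S₀ := by
      rw [Finset.mem_insert, not_or]; exact ⟨hw, hwS₀⟩
    obtain ⟨Yw, hYw, hwYw⟩ := hcover σ hσS₀ w hwσ
    by_cases hyYw : y ∈ Yw
    · have hNyYw := hP2 σ Yw y hYw hyYw hyσ
      have hσYw : σ ∈ Yw := hYw.2.1 (Finset.mem_insert_self _ _)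
      have hNYw : N ≠ Yw := fun h => hσN (h ▸ hσYw)
      by_contra hcon
      exact hNYw (NN.eq_of hS₀c hA hN hNyYw hcon hwYw)
    · have := NN.eq_of hS₀c hA hYw hbase hyYw hz₀
      rw [this] at hwYw
      exact (hcovN1 w).resolve_right hwYw
  have hNcard : Fintype.card Ω - 1 ≤ N.card := by
    have : Finset.univ.erase σ ⊆ N := by
      intro w hw
      exact hall w (Finset.ne_of_mem_erase hw)
    have := Finset.card_le_card this
    rwa [Finset.card_erase_of_mem (Finset.mem_univ _), Finset.card_univ] at this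
  have := hN.2.2.1
  omega

end Cfsg.Agent.Lib.Helper66.Mg
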