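import Cfsg.Agent.Lib.Helper66.MgBasic
import Cfsg.Agent.Lib.Helper64.DesignLemma

/-!
# Marggraf's theorem: the Steiner-system case (case B, `2 ≤ t`)
-/

set_option autoImplicit false
set_option linter.unusedSectionVars false

namespace Cfsg.Agent.Lib.Helper66.Mg

open scoped Pointwise

variable {G : Type*} {Ω : Type*} [Group G] [MulAction G Ω] [DecidableEq Ω] [Fintype Ω]

/-- minimality of `L₀` over every `(t-1)`-subset of `L₀` -/
theorem MinData.min_gen_one {t : ℕ} {Sg L₀ : Finset Ω} (D : MinData G t Sg L₀)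
    (hB : 2 * L₀.card + 1 < Fintype.card Ω + t)
    (Sg' : Finset Ω) (h1 : Sg' ⊆ L₀) (hc : Sg'.card + 1 = t) (Y : Finset Ω) (hY : JC G Y)
    (h2 : Sg' ⊆ Y) (h3 : Y ⊆ L₀) : Y = Sg' ∨ Y = L₀ := by
  by_cases hYS : Y = Sg'
  · exact Or.inl hYS
  have hex : ∃ y ∈ Y, y ∉ Sg' := by
    by_contra hcon
    push Not at hcon
    exact hYS (Finset.Subset.antisymm hcon h2)
  obtain ⟨y, hyY, hyS⟩ := hex
  have hS := D.hS
  obtain ⟨h₁, hh₁⟩ := homog' D.hAll Sg Sg' (by omega) (by omega)
  have hb : ∃ b ∈ L₀, b ∉ Sg := by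
    by_contra hcon
    push Not at hcon
    have := Finset.card_le_card hcon
    have := D.hLcard
    omega
  obtain ⟨b, hbL, hbS⟩ := hb
  have hy' : h₁⁻¹ • y ∉ Sg := by
    rw [Finset.inv_smul_mem_iff, hh₁]; exact hyS
  obtain ⟨h₂, hh₂, hh₂b⟩ := D.hAll Sg (by omega) b hbS _ hy'
  set h := h₁ * h₂ with hh
  have hhS : h • Sg = Sg' := by
    rw [hh, mul_smul, smul_finset_eq_of_fix hh₂, hh₁]
  have hhb : h • b = y := by
    rw [hh, mul_smul, hh₂b, smul_inv_smul]
  have hyL : y ∈ h • L₀ := by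
    rw [← hhb]; exact (Finset.smul_mem_smul_finset_iff h).mpr hbL
  have hSL' : Sg' ⊆ h • L₀ := by
    rw [← hhS]; exact Finset.smul_finset_subset_smul_finset_iff.mpr D.hSL
  have hLL : h • L₀ = L₀ := by
    by_contra hne
    have hins : insert y Sg' ⊆ h • L₀ ∩ L₀ := by
      intro x hx
      rw [Finset.mem_insert] at hx
      rcases hx with rfl | hx
      · exact Finset.mem_inter.mpr ⟨hyL, h3 hyY⟩
      · exact Finset.mem_inter.mpr ⟨hSL' hx, h1 hx⟩
    have hcard : t ≤ (h • L₀ ∩ L₀).card := by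
      have := Finset.card_le_card hins
      rw [Finset.card_insert_of_notMem hyS] at this
      omega
    have hun : (h • L₀ ∪ L₀).card < Fintype.card Ω := by
      have := Finset.card_union_add_card_inter (h • L₀) L₀
      rw [Finset.card_smul_finset] at this
      omega
    obtain ⟨z, hz1, hz2⟩ := exists_notMem_union _ _ hun
    have hJ := (D.hL.smul h).inter D.hL hz1 hz2
    rcases D.min_smul h _ hJ (by rw [hhS]; exact Finset.subset_inter hSL' h1)
      Finset.inter_subset_left with hZ | hZ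
    · rw [hhS] at hZ
      exact hyS (hZ ▸ Finset.mem_inter.mpr ⟨hyL, h3 hyY⟩)
    · have hsub : h • L₀ ⊆ L₀ := by
        rw [← hZ]; exact Finset.inter_subset_right
      exact hne (Finset.eq_of_subset_of_card_le hsub (by rw [Finset.card_smul_finset]))
  have := D.min_smul h Y hY (by rw [hhS]; exact h2) (by rw [hLL]; exact h3)
  rw [hhS, hLL] at this
  exact this

theorem MinData.min_gen {t : ℕ} {Sg L₀ : Finset Ω} (D : MinData G t Sg L₀)
    (hB : 2 * L₀.card + 1 < Fintype.card Ω + t) (g : G)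
    (Sg' : Finset Ω) (h1 : Sg' ⊆ g • L₀) (hc : Sg'.card + 1 = t) (Y : Finset Ω) (hY : JC G Y)
    (h2 : Sg' ⊆ Y) (h3 : Y ⊆ g • L₀) : Y = Sg' ∨ Y = g • L₀ := by
  have h1' : g⁻¹ • Sg' ⊆ L₀ := by
    rw [Finset.smul_finset_subset_iff, inv_inv]; exact h1
  have h3' : g⁻¹ • Y ⊆ L₀ := by
    rw [Finset.smul_finset_subset_iff, inv_inv]; exact h3
  rcases D.min_gen_one hB (g⁻¹ • Sg') h1' (by rw [Finset.card_smul_finset]; exact hc)
    (g⁻¹ • Y) (hY.smul _) (Finset.smul_finset_subset_smul_finset_iff.mpr h2) h3' with h | h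
  · left
    have := congrArg (fun Z => g • Z) h
    simpa using this
  · right
    have := congrArg (fun Z => g • Z) h
    simpa using this

theorem MinData.uniq {t : ℕ} {Sg L₀ : Finset Ω} (D : MinData G t Sg L₀)
    (hB : 2 * L₀.card + 1 < Fintype.card Ω + t) (g g' : G)
    (hc : t ≤ (g • L₀ ∩ g' • L₀).card) : g • L₀ = g' • L₀ := by
  have hun : (g • L₀ ∪ g' • L₀).card < Fintype.card Ω := by
    have := Finset.card_union_add_card_inter (g • L₀) (g' • L₀)
    rw [Finset.card_smul_finset, Finset.card_smul_finset] at this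
    omega
  obtain ⟨z, hz1, hz2⟩ := exists_notMem_union _ _ hun
  have hJ := (D.hL.smul g).inter (D.hL.smul g') hz1 hz2
  have hS := D.hS
  obtain ⟨Sg', hSg', hSgc⟩ := Finset.exists_subset_card_eq (show t - 1 ≤ (g • L₀ ∩ g' • L₀).card by omega)
  rcases D.min_gen hB g Sg' (hSg'.trans Finset.inter_subset_left) (by omega) _ hJ hSg'
    Finset.inter_subset_left with hZ | hZ
  · rw [hZ] at hc; omega
  · have hsub : g • L₀ ⊆ g' • L₀ := by
      rw [← hZ]; exact Finset.inter_subset_right
    exact Finset.eq_of_subset_of_card_le hsub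
      (by rw [Finset.card_smul_finset, Finset.card_smul_finset])

/-- No `(t+1)`-subset of a translate of `L₀` meets `Γ` in exactly one point. -/
theorem MinData.sub_prop {t : ℕ} {Sg L₀ : Finset Ω} (D : MinData G t Sg L₀) (ht : 2 ≤ t)
    (hB : 2 * L₀.card + 1 < Fintype.card Ω + t) (Γ : Finset Ω) (hΓ : 2 ≤ Γ.card)
    (hJ : JC G Γᶜ) (hLΔ : L₀ ⊆ Γᶜ) (g : G) (U : Finset Ω) (hUL : U ⊆ g • L₀)
    (hU : U.card = t + 1) (h1 : (U ∩ Γ).card = 1) : False := by
  obtain ⟨γ, hγ⟩ := Finset.card_eq_one.mp h1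
  have hγU : γ ∈ U := by
    have : γ ∈ U ∩ Γ := by rw [hγ]; exact Finset.mem_singleton_self _
    exact (Finset.mem_inter.mp this).1
  have hγΓ : γ ∈ Γ := by
    have : γ ∈ U ∩ Γ := by rw [hγ]; exact Finset.mem_singleton_self _
    exact (Finset.mem_inter.mp this).2
  set T := U.erase γ with hT
  have hTc : T.card = t := by
    rw [hT, Finset.card_erase_of_mem hγU, hU]; rfl
  have hTΔ : T ⊆ Γᶜ := by
    intro x hx
    rw [Finset.mem_compl]
    intro hxΓ
    have hxU := Finset.mem_of_mem_erase hx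
    have : x ∈ U ∩ Γ := Finset.mem_inter.mpr ⟨hxU, hxΓ⟩
    rw [hγ, Finset.mem_singleton] at this
    exact (Finset.ne_of_mem_erase hx) this
  have hTL : T ⊆ g • L₀ := (Finset.erase_subset _ _).trans hUL
  have hγL : γ ∈ g • L₀ := hUL hγU
  have hS := D.hS
  have hℓ : (g • L₀).card = L₀.card := Finset.card_smul_finset _ _
  by_cases hΓL : Γ ⊆ g • L₀
  · -- the long case
    obtain ⟨γ', hγ'Γ, hγ'ne⟩ := Finset.exists_mem_ne (by omega : 1 < Γ.card) γ
    obtain ⟨S₀, hS₀T, hS₀c⟩ := Finset.exists_subset_card_eq (show t - 2 ≤ T.card by omega)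
    have hS₀Δ : S₀ ⊆ Γᶜ := hS₀T.trans hTΔ
    -- size of L₀
    have hbig : Γ.card + t ≤ L₀.card := by
      rw [← hℓ, ← hTc, ← Finset.card_union_of_disjoint]
      · exact Finset.card_le_card (Finset.union_subset hΓL hTL)
      · rw [Finset.disjoint_left]
        intro x hx hxT
        exact (Finset.mem_compl.mp (hTΔ hxT)) hx
    have key : ∀ δ ∈ Γᶜ, δ ∈ g • L₀ := by
      intro δ hδ
      by_cases hδ0 : δ ∈ S₀
      · exact hTL (hS₀T hδ0)
      set Sδ := insert δ S₀ with hSδ
      have hSδc : Sδ.card + 1 = t := by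
        rw [hSδ, Finset.card_insert_of_notMem hδ0]; omega
      have hSδΔ : Sδ ⊆ Γᶜ := by
        intro x hx
        rw [hSδ, Finset.mem_insert] at hx
        rcases hx with rfl | hx
        · exact hδ
        · exact hS₀Δ hx
      have hγSδ : γ ∉ Sδ := fun hh => (Finset.mem_compl.mp (hSδΔ hh)) hγΓ
      set Tδ := insert γ Sδ with hTδ
      have hTδc : Tδ.card = t := by
        rw [hTδ, Finset.card_insert_of_notMem hγSδ]; omega
      obtain ⟨T₁, hT₁L, hT₁c⟩ := Finset.exists_subset_card_eq (show t ≤ L₀.card by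
        have := D.hLcard; omega)
      obtain ⟨h, hh⟩ := homog' D.hAll T₁ Tδ (by omega) (by omega)
      have hTδL : Tδ ⊆ h • L₀ := by
        rw [← hh]; exact Finset.smul_finset_subset_smul_finset_iff.mpr hT₁L
      have hSδL : Sδ ⊆ h • L₀ := (Finset.subset_insert _ _).trans hTδL
      have hγLδ : γ ∈ h • L₀ := hTδL (Finset.mem_insert_self _ _)
      have hΓLδ : Γ ⊆ h • L₀ := by
        by_contra hcon
        obtain ⟨z, hzΓ, hzL⟩ := Finset.not_subset.mp hcon
        have hJ' := (D.hL.smul h).inter hJ hzL (by simpa using hzΓ)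
        rcases D.min_gen hB h Sδ hSδL hSδc _ hJ' (Finset.subset_inter hSδL hSδΔ)
          Finset.inter_subset_left with hZ | hZ
        · -- count
          have hsplit : (h • L₀).card = (h • L₀ ∩ Γᶜ).card + (h • L₀ ∩ Γ).card := by
            rw [← Finset.card_union_of_disjoint]
            · congr 1
              ext x
              simp only [Finset.mem_union, Finset.mem_inter, Finset.mem_compl]
              tauto
            · rw [Finset.disjoint_left]
              intro x hx hx'
              exact (Finset.mem_compl.mp (Finset.mem_inter.mp hx).2) (Finset.mem_inter.mp hx').2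
          have h2 : (h • L₀ ∩ Γ).card ≤ Γ.card := Finset.card_le_card Finset.inter_subset_right
          rw [hZ, Finset.card_smul_finset] at hsplit
          omega
        · have : γ ∈ h • L₀ ∩ Γᶜ := by rw [hZ]; exact hγLδ
          exact (Finset.mem_compl.mp (Finset.mem_inter.mp this).2) hγΓ
      have hW : insert γ (insert γ' S₀) ⊆ h • L₀ ∩ g • L₀ := by
        intro x hx
        rw [Finset.mem_insert, Finset.mem_insert] at hx
        rcases hx with rfl | rfl | hx
        · exact Finset.mem_inter.mpr ⟨hγLδ, hγL⟩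
        · exact Finset.mem_inter.mpr ⟨hΓLδ hγ'Γ, hΓL hγ'Γ⟩
        · exact Finset.mem_inter.mpr
            ⟨hSδL (Finset.mem_insert_of_mem hx), hTL (hS₀T hx)⟩
      have hWc : (insert γ (insert γ' S₀)).card = t := by
        have h1 : γ' ∉ S₀ := fun hh => (Finset.mem_compl.mp (hS₀Δ hh)) hγ'Γ
        have h2 : γ ∉ insert γ' S₀ := by
          rw [Finset.mem_insert, not_or]
          exact ⟨fun hh => hγ'ne hh.symm, fun hh => (Finset.mem_compl.mp (hS₀Δ hh)) hγΓ⟩
        rw [Finset.card_insert_of_notMem h2, Finset.card_insert_of_notMem h1]; omega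
      have := D.uniq hB h g (by rw [← hWc]; exact Finset.card_le_card hW)
      rw [← this]
      exact hSδL (Finset.mem_insert_self _ _)
    have huniv : g • L₀ = Finset.univ := by
      rw [Finset.eq_univ_iff_forall]
      intro x
      by_cases hx : x ∈ Γ
      · exact hΓL hx
      · exact key x (Finset.mem_compl.mpr hx)
    have h3 : L₀.card ≤ (Γᶜ).card := Finset.card_le_card hLΔ
    have h4 := Finset.card_compl Γ
    rw [huniv, Finset.card_univ] at hℓ
    have h5 : Γ.card ≤ Fintype.card Ω := Finset.card_le_univ _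
    omega
  · obtain ⟨z, hzΓ, hzL⟩ := Finset.not_subset.mp hΓL
    have hJ' := (D.hL.smul g).inter hJ hzL (by simpa using hzΓ)
    obtain ⟨Sg', hSg'T, hSg'c⟩ := Finset.exists_subset_card_eq (show t - 1 ≤ T.card by omega)
    rcases D.min_gen hB g Sg' (hSg'T.trans hTL) (by omega) _ hJ'
      (Finset.subset_inter (hSg'T.trans hTL) (hSg'T.trans hTΔ)) Finset.inter_subset_left
      with hZ | hZ
    · have := Finset.card_le_card (Finset.subset_inter hTL hTΔ)
      rw [hZ] at this
      omega
    · have : γ ∈ g • L₀ ∩ Γᶜ := by rw [hZ]; exact hγL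
      exact (Finset.mem_compl.mp (Finset.mem_inter.mp this).2) hγΓ

/-- Case B is impossible. -/
theorem MinData.caseB {t : ℕ} {Sg L₀ : Finset Ω} (D : MinData G t Sg L₀) (ht : 2 ≤ t)
    (hB : 2 * L₀.card + 1 < Fintype.card Ω + t) (Γ : Finset Ω) (hΓ : 2 ≤ Γ.card)
    (hΓ2 : 2 * Γ.card < Fintype.card Ω)
    (hJ : JC G Γᶜ) (hLΔ : L₀ ⊆ Γᶜ) : False := by
  classical
  set F : Finset (Finset Ω) :=
    Finset.univ.filter (fun U => U.card = t + 1 ∧ ∃ g : G, U ⊆ g • L₀) with hF
  have hLc := D.hLcard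
  obtain ⟨T₁, hT₁L, hT₁c⟩ := Finset.exists_subset_card_eq (show t ≤ L₀.card by omega)
  set lam := (F.filter (fun U => T₁ ⊆ U)).card with hlamdef
  have hreg : ∀ T : Finset Ω, T.card = t → (F.filter (fun U => T ⊆ U)).card = lam := by
    intro T hT
    obtain ⟨g, hg⟩ := homog' D.hAll T₁ T (by omega) (by omega)
    symm
    apply Finset.card_bij (fun U _ => g • U)
    · intro U hU
      simp only [Finset.mem_filter, hF, Finset.mem_univ, true_and] at hU ⊢
      obtain ⟨⟨hc, g', hg'⟩, hTU⟩ := hU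
      refine ⟨⟨by rw [Finset.card_smul_finset]; exact hc, g * g', ?_⟩, ?_⟩
      · rw [mul_smul]; exact Finset.smul_finset_subset_smul_finset_iff.mpr hg'
      · rw [← hg]; exact Finset.smul_finset_subset_smul_finset_iff.mpr hTU
    · intro U _ V _ h
      exact smul_left_cancel g h
    · intro V hV
      simp only [Finset.mem_filter, hF, Finset.mem_univ, true_and] at hV
      obtain ⟨⟨hc, g', hg'⟩, hTV⟩ := hV
      refine ⟨g⁻¹ • V, ?_, smul_inv_smul g V⟩
      simp only [Finset.mem_filter, hF, Finset.mem_univ, true_and]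
      refine ⟨⟨by rw [Finset.card_smul_finset]; exact hc, g⁻¹ * g', ?_⟩, ?_⟩
      · rw [mul_smul]; exact Finset.smul_finset_subset_smul_finset_iff.mpr hg'
      · rw [Finset.subset_smul_finset_iff, inv_inv, hg]; exact hTV
  have hlam : 0 < lam := by
    have hb : ∃ b ∈ L₀, b ∉ T₁ := by
      by_contra hcon
      push Not at hcon
      have := Finset.card_le_card hcon
      omega
    obtain ⟨b, hbL, hbT⟩ := hb
    rw [hlamdef, Finset.card_pos]
    refine ⟨insert b T₁, ?_⟩
    simp only [Finset.mem_filter, hF, Finset.mem_univ, true_and]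
    refine ⟨⟨by rw [Finset.card_insert_of_notMem hbT, hT₁c], 1, ?_⟩, Finset.subset_insert _ _⟩
    rw [one_smul]
    exact Finset.insert_subset hbL hT₁L
  have hk : Γ.Nonempty := Finset.card_pos.mp (by omega)
  have h3 : L₀.card ≤ (Γᶜ).card := Finset.card_le_card hLΔ
  have hDL := Cfsg.Agent.Lib.Helper64.DesignLemma.design_lemma Γ t lam F ht hlam
    (fun U hU => by
      simp only [Finset.mem_filter, hF, Finset.mem_univ, true_and] at hU
      exact hU.1)
    hreg
    (fun U hU h1 => by
      simp only [Finset.mem_filter, hF, Finset.mem_univ, true_and] at hU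
      obtain ⟨hc, g, hg⟩ := hU
      exact D.sub_prop ht hB Γ hΓ hJ hLΔ g U hg hc h1)
    hk (by omega)
  have h4 := Finset.card_compl Γ
  have h5 : Γ.card ≤ Fintype.card Ω := Finset.card_le_univ _
  omega

end Cfsg.Agent.Lib.Helper66.Mg
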