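import Cfsg.Agent.Lib.Helper66.MgBasic

/-!
# Marggraf's theorem: the highly transitive case
-/

set_option autoImplicit false
set_option linter.unusedSectionVars false

namespace Cfsg.Agent.Lib.Helper66.Mg

open scoped Pointwise
open Equiv

variable {G : Type*} {Ω : Type*} [Group G] [MulAction G Ω] [DecidableEq Ω] [Fintype Ω]

/-- A group in which all sets of size at most `|Γᶜ|` are Jordan complements, where
`2 ≤ |Γ| < n/2`, induces a 3-cycle. -/
theorem exists_three_cycle (Γ : Finset Ω) (hΓ1 : 2 ≤ Γ.card) (hΓ2 : 2 * Γ.card < Fintype.card Ω)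
    (hAll : AllJ G Ω (Γᶜ.card + 1)) :
    ∃ (z : G) (a₀ b₀ c₀ : Ω), a₀ ≠ b₀ ∧ b₀ ≠ c₀ ∧ a₀ ≠ c₀ ∧
      MulAction.toPerm z = swap a₀ b₀ * swap b₀ c₀ := by
  classical
  have hcompl := Finset.card_compl Γ
  have hle : Γ.card ≤ Fintype.card Ω := Finset.card_le_univ _
  obtain ⟨a, haΓ⟩ := Finset.card_pos.mp (by omega : 0 < Γ.card)
  obtain ⟨b, hbΓ, hba⟩ := Finset.exists_mem_ne (by omega : 1 < Γ.card) a
  obtain ⟨x, hx, hxab⟩ := hAll Γᶜ (by omega) a (by simpa using haΓ) b (by simpa using hbΓ)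
  set S : Finset Ω := Finset.univ.filter (fun p => x • p ≠ p) with hS
  have hSΓ : S ⊆ Γ := by
    intro p hp
    by_contra hpΓ
    rw [hS, Finset.mem_filter] at hp
    exact hp.2 (hx p (Finset.mem_compl.mpr hpΓ))
  have haS : a ∈ S := by
    rw [hS, Finset.mem_filter]
    exact ⟨Finset.mem_univ _, by rw [hxab]; exact hba⟩
  have hxS : ∀ p, p ∉ S → x • p = p := by
    intro p hp
    by_contra h
    exact hp (by rw [hS, Finset.mem_filter]; exact ⟨Finset.mem_univ _, h⟩)
  have hxS' : ∀ p, p ∈ S → x • p ∈ S := by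
    intro p hp
    rw [hS, Finset.mem_filter] at hp ⊢
    exact ⟨Finset.mem_univ _, fun h => hp.2 (smul_left_cancel x h)⟩
  have hxinvS : ∀ p, p ∉ S → x⁻¹ • p = p := by
    intro p hp
    rw [inv_smul_eq_iff, hxS p hp]
  have hxinvS' : ∀ p, p ∈ S → x⁻¹ • p ∈ S := by
    intro p hp
    by_contra h
    have := hxS _ h
    rw [smul_inv_smul] at this
    exact h (this ▸ hp)
  obtain ⟨α', hα'⟩ : ∃ α', α' ∈ Γᶜ := Finset.card_pos.mp (by omega)
  have hα'S : α' ∉ S := fun h => (Finset.mem_compl.mp hα') (hSΓ h)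
  have hcardS : (S.erase a).card < Γᶜ.card + 1 := by
    have := Finset.card_le_card hSΓ
    rw [Finset.card_erase_of_mem haS]
    omega
  obtain ⟨g, hg, hgaα⟩ := hAll (S.erase a) hcardS a (by simp) α'
    (fun h => hα'S (Finset.mem_of_mem_erase h))
  have hg' : ∀ p ∈ S, p ≠ a → g • p = p := fun p hp hpa =>
    hg p (Finset.mem_erase.mpr ⟨hpa, hp⟩)
  have hginv : ∀ p ∈ S, p ≠ a → g⁻¹ • p = p := by
    intro p hp hpa
    rw [inv_smul_eq_iff, hg' p hp hpa]
  have hginvα : g⁻¹ • α' = a := by rw [inv_smul_eq_iff, hgaα]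
  have haα : a ≠ α' := fun h => hα'S (h ▸ haS)
  have hnotS : ∀ p, p ∉ S → p ≠ α' → g⁻¹ • p ∉ S := by
    intro p hp hpα h
    by_cases hra : g⁻¹ • p = a
    · rw [inv_smul_eq_iff, hgaα] at hra
      exact hpα hra
    · have := hg' _ h hra
      rw [smul_inv_smul] at this
      exact hp (this ▸ h)
  have hr : g⁻¹ • a ∉ S := by
    intro h
    by_cases hra : g⁻¹ • a = a
    · rw [inv_smul_eq_iff, hgaα] at hra
      exact haα hra
    · have := hg' _ h hra
      rw [smul_inv_smul] at this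
      exact hra this.symm
  set p₀ := x⁻¹ • a with hp₀
  have hp₀S : p₀ ∈ S := hxinvS' a haS
  have hxp₀ : x • p₀ = a := by rw [hp₀, smul_inv_smul]
  have hp₀a : p₀ ≠ a := by
    intro h
    rw [hp₀, inv_smul_eq_iff] at h
    rw [hS, Finset.mem_filter] at haS
    exact haS.2 h.symm
  have hp₀α : p₀ ≠ α' := fun h => hα'S (h ▸ hp₀S)
  refine ⟨x⁻¹ * (g * x * g⁻¹), p₀, α', a, hp₀α, haα.symm, hp₀a, ?_⟩
  ext p
  simp only [MulAction.toPerm_apply, Perm.mul_apply, mul_smul]
  by_cases h1 : p = p₀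
  · subst h1
    rw [swap_apply_of_ne_of_ne hp₀α hp₀a, swap_apply_left, hginv _ hp₀S hp₀a, hxp₀, hgaα,
      hxinvS _ hα'S]
  by_cases h2 : p = α'
  · subst h2
    rw [swap_apply_left, swap_apply_of_ne_of_ne hp₀a.symm haα, hginvα]
    have hq : x • a ∈ S := hxS' a haS
    have hqa : x • a ≠ a := by
      rw [hS, Finset.mem_filter] at haS; exact haS.2
    rw [hg' _ hq hqa, inv_smul_smul]
  by_cases h3 : p = a
  · subst h3
    rw [swap_apply_right, swap_apply_right, hxS _ hr, smul_inv_smul]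
  rw [swap_apply_of_ne_of_ne h2 h3, swap_apply_of_ne_of_ne h1 h2]
  by_cases hpS : p ∈ S
  · rw [hginv p hpS h3]
    have hq : x • p ∈ S := hxS' p hpS
    have hqa : x • p ≠ a := by
      intro h
      apply h1
      rw [hp₀, ← h, inv_smul_smul]
    rw [hg' _ hq hqa, inv_smul_smul]
  · rw [hxS _ (hnotS p hpS h2), smul_inv_smul, hxinvS p hpS]

/-- A group in which all sets of size at most `|Γᶜ|` are Jordan complements, where
`2 ≤ |Γ| < n/2`, induces every even permutation. -/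
theorem high_trans (Γ : Finset Ω) (hΓ1 : 2 ≤ Γ.card) (hΓ2 : 2 * Γ.card < Fintype.card Ω)
    (hAll : AllJ G Ω (Γᶜ.card + 1)) :
    ∀ σ : Perm Ω, Perm.sign σ = 1 → ∃ x : G, MulAction.toPerm x = σ := by
  classical
  have hcompl := Finset.card_compl Γ
  have hle : Γ.card ≤ Fintype.card Ω := Finset.card_le_univ _
  obtain ⟨z, a₀, b₀, c₀, hab₀, hbc₀, hac₀, hz⟩ := exists_three_cycle Γ hΓ1 hΓ2 hAll
  -- every 3-cycle is induced
  have h3 : ∀ τ : Perm Ω, τ.IsThreeCycle → τ ∈ (MulAction.toPermHom G Ω).range := by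
    intro τ hτ
    have hne : τ.support.Nonempty := by
      rw [← Finset.card_pos, hτ.card_support]; norm_num
    obtain ⟨a, ha⟩ := hne
    have heq := hτ.eq_swap_mul_swap_iff_mem_support.mpr ha
    have hnd := hτ.nodup_iff_mem_support.mpr ha
    set b := τ a with hb
    set c := τ b with hc
    have hab : a ≠ b := by
      intro h; simp [← h] at hnd
    have hbc : b ≠ c := by
      intro h; simp [← h] at hnd
    have hac : a ≠ c := by
      intro h; simp [← h] at hnd
    -- ordered 3-transitivity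
    obtain ⟨g₁, -, hg₁⟩ := hAll ∅ (by simp) a₀ (by simp) a (by simp)
    have h1 : g₁ • b₀ ∉ ({a} : Finset Ω) := by
      rw [Finset.mem_singleton, ← hg₁]
      exact fun h => hab₀ (smul_left_cancel g₁ h).symm
    obtain ⟨g₂, hg₂, hg₂b⟩ := hAll {a} (by rw [Finset.card_singleton]; omega) (g₁ • b₀) h1 b
      (by rw [Finset.mem_singleton]; exact hab.symm)
    have hg₂a : g₂ • a = a := hg₂ a (Finset.mem_singleton_self a)
    have h2 : g₂ • g₁ • c₀ ∉ ({a, b} : Finset Ω) := by
      rw [Finset.mem_insert, Finset.mem_singleton, not_or]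
      constructor
      · rw [← hg₂a, ← hg₁]
        exact fun h => hac₀ (smul_left_cancel g₁ (smul_left_cancel g₂ h)).symm
      · rw [← hg₂b]
        exact fun h => hbc₀ (smul_left_cancel g₁ (smul_left_cancel g₂ h)).symm
    have hcard2 : ({a, b} : Finset Ω).card < Γᶜ.card + 1 := by
      rw [Finset.card_pair hab]; omega
    obtain ⟨g₃, hg₃, hg₃c⟩ := hAll {a, b} hcard2 (g₂ • g₁ • c₀) h2 c
      (by
        rw [Finset.mem_insert, Finset.mem_singleton, not_or]
        exact ⟨hac.symm, hbc.symm⟩)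
    have hg₃a : g₃ • a = a := hg₃ a (by simp)
    have hg₃b : g₃ • b = b := hg₃ b (by simp)
    set f := g₃ * g₂ * g₁ with hf
    have hfa : f • a₀ = a := by rw [hf, mul_smul, mul_smul, hg₁, hg₂a, hg₃a]
    have hfb : f • b₀ = b := by rw [hf, mul_smul, mul_smul, hg₂b, hg₃b]
    have hfc : f • c₀ = c := by rw [hf, mul_smul, mul_smul, hg₃c]
    refine ⟨f * z * f⁻¹, ?_⟩
    rw [heq, map_mul, map_mul, map_inv]
    show MulAction.toPerm f * MulAction.toPerm z * (MulAction.toPerm f)⁻¹ = _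
    rw [hz]
    have e1 : swap a b = MulAction.toPerm f * swap a₀ b₀ * (MulAction.toPerm f)⁻¹ := by
      rw [← swap_apply_apply]
      simp only [MulAction.toPerm_apply, hfa, hfb]
    have e2 : swap b c = MulAction.toPerm f * swap b₀ c₀ * (MulAction.toPerm f)⁻¹ := by
      rw [← swap_apply_apply]
      simp only [MulAction.toPerm_apply, hfb, hfc]
    rw [e1, e2]
    group
  intro σ hσ
  have hmem : σ ∈ alternatingGroup Ω := Perm.mem_alternatingGroup.mpr hσ
  rw [← Perm.closure_three_cycles_eq_alternating] at hmem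
  have hle' : Subgroup.closure {τ : Perm Ω | τ.IsThreeCycle} ≤ (MulAction.toPermHom G Ω).range :=
    (Subgroup.closure_le _).mpr h3
  obtain ⟨x, hx⟩ := hle' hmem
  exact ⟨x, hx⟩

end Cfsg.Agent.Lib.Helper66.Mg
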