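import Cfsg.Agent.Lib.Helper66.MgBasic

/-!
# Marggraf's theorem: the case `t = 1` (quasiprimitive groups are 2-transitive)
-/

set_option autoImplicit false
set_option linter.unusedSectionVars false
set_option linter.style.haveILetI false

namespace Cfsg.Agent.Lib.Helper66.Mg

open scoped Pointwise
open Equiv

universe u v

variable {G : Type u} {Ω : Type v} [Group G] [MulAction G Ω] [DecidableEq Ω] [Fintype Ω]

/-- An element fixing `Γᶜ` pointwise fixes (setwise) every set containing `Γ` and every set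
disjoint from `Γ`. -/
theorem smul_eq_of_fix_compl {Γ : Finset Ω} {h : G} (hh : ∀ x ∈ Γᶜ, h • x = x) (M : Finset Ω)
    (hM : Γ ⊆ M ∨ M ⊆ Γᶜ) : h • M = M := by
  rcases hM with hM | hM
  · apply Finset.eq_of_subset_of_card_le
    · intro y hy
      obtain ⟨x, hx, rfl⟩ := Finset.mem_smul_finset.mp hy
      by_cases hxΓ : x ∈ Γ
      · apply hM
        have : h • x ∉ Γᶜ := notMem_of_fix hh (by simpa using hxΓ)
        simpa using this
      · rw [hh x (Finset.mem_compl.mpr hxΓ)]; exact hx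
    · rw [Finset.card_smul_finset]
  · exact smul_finset_eq_of_fix (fun x hx => hh x (hM hx))

/-- The case `t = 1`. -/
theorem MinData.caseOne {L₀ : Finset Ω} (D : MinData G 1 ∅ L₀)
    (hqp : ∀ N : Subgroup G, N.Normal → N ≠ ⊥ → MulAction.IsPretransitive ↥N Ω)
    (Γ : Finset Ω) (hΓ1 : 2 ≤ Γ.card) (hΓ2 : 2 * Γ.card < Fintype.card Ω) (hJ : JC G Γᶜ)
    (hLΔ : L₀ ⊆ Γᶜ)
    (IH : ∀ (Ω' : Type v) [Fintype Ω'] [DecidableEq Ω'] [MulAction G Ω'] [FaithfulSMul G Ω'],
      Fintype.card Ω' < Fintype.card Ω →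
      (∀ N : Subgroup G, N.Normal → N ≠ ⊥ → MulAction.IsPretransitive ↥N Ω') →
      ∀ Γ' : Finset Ω', 2 ≤ Γ'.card → 2 * Γ'.card < Fintype.card Ω' → JC G Γ'ᶜ →
      ∀ σ : Perm Ω', Perm.sign σ = 1 → ∃ x : G, MulAction.toPerm x = σ) : False := by
  classical
  have hcompl := Finset.card_compl Γ
  have hle : Γ.card ≤ Fintype.card Ω := Finset.card_le_univ _
  have hLc := D.hLcard
  have hL3 : L₀.card ≤ (Γᶜ).card := Finset.card_le_card hLΔ
  set ℓ := L₀.card with hℓ
  -- a nontrivial element of the Jordan group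
  obtain ⟨a, haΓ⟩ := Finset.card_pos.mp (by omega : 0 < Γ.card)
  obtain ⟨b, hbΓ, hba⟩ := Finset.exists_mem_ne (by omega : 1 < Γ.card) a
  obtain ⟨h, hh, hhab⟩ := hJ a (by simpa using haΓ) b (by simpa using hbΓ)
  have hh1 : h ≠ 1 := by
    rintro rfl
    rw [one_smul] at hhab
    exact hba hhab.symm
  have hLne : L₀.Nonempty := Finset.card_pos.mp (by omega)
  have hLproper : L₀ ≠ Finset.univ := by
    intro h'
    have : ℓ = Fintype.card Ω := by rw [hℓ, h', Finset.card_univ]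
    omega
  by_cases hall : ∀ g : G, Γ ⊆ g • L₀ ∨ g • L₀ ⊆ Γᶜ
  · exact no_kernel hqp L₀ hLne hLproper h hh1 (fun g => smul_eq_of_fix_compl hh _ (hall g))
  push Not at hall
  obtain ⟨g₂, hg₂1, hg₂2⟩ := hall
  have hmin0 : ∀ Y, JC G Y → Y ⊆ L₀ → Y = ∅ ∨ Y = L₀ :=
    fun Y hY hYL => D.hmin Y hY (Finset.empty_subset _) hYL
  -- case B holds
  have hB : 2 * ℓ < Fintype.card Ω := by
    by_contra hA
    push Not at hA
    have : g₂ • L₀ = L₀ ∨ Γ ⊆ g₂ • L₀ := by
      by_cases hz : ∃ z, z ∉ g₂ • L₀ ∧ z ∉ L₀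
      · obtain ⟨z, hz1, hz2⟩ := hz
        have hJ' := (D.hL.smul g₂).inter D.hL hz1 hz2
        rcases hmin0 _ hJ' Finset.inter_subset_right with hZ | hZ
        · exfalso
          have h1 := Finset.card_union_add_card_inter (g₂ • L₀) L₀
          rw [hZ, Finset.card_smul_finset, Finset.card_empty] at h1
          have h2 : g₂ • L₀ ∪ L₀ = Finset.univ := by
            apply Finset.eq_univ_of_card
            have := Finset.card_le_univ (g₂ • L₀ ∪ L₀)
            omega
          have : z ∈ g₂ • L₀ ∪ L₀ := by rw [h2]; exact Finset.mem_univ _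
          rcases Finset.mem_union.mp this with h3 | h3
          · exact hz1 h3
          · exact hz2 h3
        · left
          have hsub : L₀ ⊆ g₂ • L₀ := Finset.inter_eq_right.mp hZ
          exact (Finset.eq_of_subset_of_card_le hsub (by rw [Finset.card_smul_finset])).symm
      · right
        push Not at hz
        intro x hx
        by_contra hxL
        exact (Finset.mem_compl.mp (hLΔ (hz x hxL))) hx
    rcases this with h1 | h1
    · exact hg₂2 (by rw [h1]; exact hLΔ)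
    · exact hg₂1 h1
  -- blocks
  have hblk : ∀ g : G, g • L₀ = L₀ ∨ Disjoint (g • L₀) L₀ := by
    intro g
    have hun : (g • L₀ ∪ L₀).card < Fintype.card Ω := by
      have := Finset.card_union_le (g • L₀) L₀
      rw [Finset.card_smul_finset] at this
      omega
    obtain ⟨z, hz1, hz2⟩ := exists_notMem_union _ _ hun
    have hJ' := (D.hL.smul g).inter D.hL hz1 hz2
    rcases hmin0 _ hJ' Finset.inter_subset_right with hZ | hZ
    · right; rwa [Finset.disjoint_iff_inter_eq_empty]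
    · left
      have hsub : L₀ ⊆ g • L₀ := Finset.inter_eq_right.mp hZ
      exact (Finset.eq_of_subset_of_card_le hsub (by rw [Finset.card_smul_finset])).symm
  have hpair : ∀ (g g' : G) (x : Ω), x ∈ g • L₀ → x ∈ g' • L₀ → g • L₀ = g' • L₀ := by
    intro g g' x hx hx'
    rcases hblk (g'⁻¹ * g) with h1 | h1
    · rw [mul_smul, inv_smul_eq_iff] at h1; exact h1
    · exfalso
      rw [Finset.disjoint_left] at h1
      apply h1 (a := g'⁻¹ • x)
      · rw [mul_smul, Finset.smul_mem_smul_finset_iff]; exact hx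
      · rw [Finset.inv_smul_mem_iff]; exact hx'
  have hdich : ∀ g : G, g • L₀ ⊆ Γᶜ ∨ g • L₀ ⊆ Γ := by
    intro g
    by_cases hΓg : Γ ⊆ g • L₀
    · exfalso
      -- then g₂ • L₀ ⊆ Γ ⊆ g • L₀
      have hg₂Γ : g₂ • L₀ ⊆ Γ := by
        by_contra hcon
        obtain ⟨z, hzΓ, hzL⟩ := Finset.not_subset.mp hg₂1
        have hJ' := (D.hL.smul g₂).inter hJ hzL (by simpa using hzΓ)
        have hJ'' := hJ'.smul g₂⁻¹
        have hsub : g₂⁻¹ • (g₂ • L₀ ∩ Γᶜ) ⊆ L₀ := by
          rw [Finset.smul_finset_subset_iff, inv_inv]; exact Finset.inter_subset_left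
        rcases hmin0 _ hJ'' hsub with hZ | hZ
        · rw [Finset.smul_finset_eq_empty] at hZ
          apply hcon
          intro x hx
          by_contra hxΓ
          have : x ∈ g₂ • L₀ ∩ Γᶜ := Finset.mem_inter.mpr ⟨hx, Finset.mem_compl.mpr hxΓ⟩
          rw [hZ] at this
          exact absurd this (Finset.notMem_empty _)
        · apply hg₂2
          have h2 : g₂ • L₀ ∩ Γᶜ = g₂ • L₀ := by
            have := congrArg (fun Z => g₂ • Z) hZ
            simpa using this
          rw [← h2]; exact Finset.inter_subset_right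
      obtain ⟨x, hx⟩ : (g₂ • L₀).Nonempty := by
        rw [← Finset.card_pos, Finset.card_smul_finset]; omega
      have := hpair g₂ g x hx (hΓg (hg₂Γ hx))
      exact hg₂1 (this ▸ hΓg)
    · obtain ⟨z, hzΓ, hzL⟩ := Finset.not_subset.mp hΓg
      have hJ' := (D.hL.smul g).inter hJ hzL (by simpa using hzΓ)
      have hJ'' := hJ'.smul g⁻¹
      have hsub : g⁻¹ • (g • L₀ ∩ Γᶜ) ⊆ L₀ := by
        rw [Finset.smul_finset_subset_iff, inv_inv]; exact Finset.inter_subset_left
      rcases hmin0 _ hJ'' hsub with hZ | hZ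
      · right
        rw [Finset.smul_finset_eq_empty] at hZ
        intro x hx
        by_contra hxΓ
        have : x ∈ g • L₀ ∩ Γᶜ := Finset.mem_inter.mpr ⟨hx, Finset.mem_compl.mpr hxΓ⟩
        rw [hZ] at this
        exact absurd this (Finset.notMem_empty _)
      · left
        have h2 : g • L₀ ∩ Γᶜ = g • L₀ := by
          have := congrArg (fun Z => g • Z) hZ
          simpa using this
        rw [← h2]; exact Finset.inter_subset_right
  have hg₂Γ : g₂ • L₀ ⊆ Γ := (hdich g₂).resolve_left hg₂2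
  -- the block system as a type
  let ℬ : Type v := ↥(MulAction.orbit G L₀)
  let _ : Fintype ℬ := Fintype.ofFinite ℬ
  have hBmem : ∀ L : ℬ, ∃ g : G, g • L₀ = (L : Finset Ω) := fun L => MulAction.mem_orbit_iff.mp L.2
  have hBcard : ∀ L : ℬ, (L : Finset Ω).card = ℓ := by
    intro L
    obtain ⟨g, hg⟩ := hBmem L
    rw [← hg, Finset.card_smul_finset]
  have hBuniq : ∀ (L L' : ℬ) (x : Ω), x ∈ (L : Finset Ω) → x ∈ (L' : Finset Ω) → L = L' := by
    intro L L' x hx hx'
    obtain ⟨g, hg⟩ := hBmem L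
    obtain ⟨g', hg'⟩ := hBmem L'
    apply Subtype.ext
    rw [← hg, ← hg']
    rw [← hg] at hx
    rw [← hg'] at hx'
    exact hpair g g' x hx hx'
  have hBdich : ∀ L : ℬ, (L : Finset Ω) ⊆ Γᶜ ∨ (L : Finset Ω) ⊆ Γ := by
    intro L
    obtain ⟨g, hg⟩ := hBmem L
    rw [← hg]; exact hdich g
  have hcov : ∀ x : Ω, ∃ L : ℬ, x ∈ (L : Finset Ω) := by
    intro x
    obtain ⟨a₀, ha₀⟩ := hLne
    obtain ⟨g, -, hg⟩ := D.hAll ∅ (by simp) a₀ (by simp) x (by simp)
    exact ⟨⟨g • L₀, MulAction.mem_orbit _ _⟩, by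
      rw [← hg]; exact (Finset.smul_mem_smul_finset_iff g).mpr ha₀⟩
  choose π hπ using hcov
  have hπ' : ∀ (x : Ω) (L : ℬ), x ∈ (L : Finset Ω) → π x = L :=
    fun x L hx => hBuniq _ _ x (hπ x) hx
  have hfiber : ∀ L : ℬ, Finset.univ.filter (fun x => π x = L) = (L : Finset Ω) := by
    intro L
    ext x
    simp only [Finset.mem_filter, Finset.mem_univ, true_and]
    exact ⟨fun h => h ▸ hπ x, hπ' x L⟩
  have hcardΩ : Fintype.card Ω = Fintype.card ℬ * ℓ := by
    rw [← Finset.card_univ, Finset.card_eq_sum_card_fiberwise (f := π) (t := Finset.univ)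
      (fun x _ => Finset.mem_coe.mpr (Finset.mem_univ _))]
    rw [Finset.sum_congr rfl (fun L _ => by rw [hfiber L, hBcard L])]
    rw [Finset.sum_const, smul_eq_mul, Finset.card_univ]
  set Γb : Finset ℬ := Finset.univ.filter (fun L : ℬ => (L : Finset Ω) ⊆ Γ) with hΓb
  have hπΓ : ∀ x ∈ Γ, π x ∈ Γb := by
    intro x hx
    rw [hΓb, Finset.mem_filter]
    refine ⟨Finset.mem_univ _, ?_⟩
    rcases hBdich (π x) with h1 | h1
    · exact absurd hx (Finset.mem_compl.mp (h1 (hπ x)))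
    · exact h1
  have hcardΓ : Γ.card = Γb.card * ℓ := by
    rw [Finset.card_eq_sum_card_fiberwise (f := π) (t := Γb)
      (fun x hx => Finset.mem_coe.mpr (hπΓ x (Finset.mem_coe.mp hx)))]
    have : ∀ L ∈ Γb, (Γ.filter (fun x => π x = L)).card = ℓ := by
      intro L hL
      rw [hΓb, Finset.mem_filter] at hL
      have : Γ.filter (fun x => π x = L) = (L : Finset Ω) := by
        ext x
        simp only [Finset.mem_filter]
        exact ⟨fun h => h.2 ▸ hπ x, fun h => ⟨hL.2 h, hπ' x L h⟩⟩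
      rw [this, hBcard L]
    rw [Finset.sum_congr rfl this, Finset.sum_const, smul_eq_mul]
  let B₄ : ℬ := ⟨g₂ • L₀, MulAction.mem_orbit _ _⟩
  have hB₄Γ : (B₄ : Finset Ω) ⊆ Γ := hg₂Γ
  have hΓb2 : 2 ≤ Γb.card := by
    by_contra hcon
    have h1 : Γb.card ≤ 1 := by omega
    have h2 : Γ.card ≤ ℓ := by
      rw [hcardΓ]
      calc Γb.card * ℓ ≤ 1 * ℓ := Nat.mul_le_mul_right _ h1
        _ = ℓ := one_mul _
    have h3 : g₂ • L₀ = Γ :=
      Finset.eq_of_subset_of_card_le hg₂Γ (by rw [Finset.card_smul_finset]; exact h2)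
    exact hg₂1 (h3 ▸ Finset.Subset.refl _)
  have hΓb3 : 2 * Γb.card < Fintype.card ℬ := by
    have : 2 * Γb.card * ℓ < Fintype.card ℬ * ℓ := by
      rw [← hcardΩ, mul_assoc, ← hcardΓ]; exact hΓ2
    exact Nat.lt_of_mul_lt_mul_right this
  have hcardlt : Fintype.card ℬ < Fintype.card Ω := by
    rw [hcardΩ]
    have hpos : 0 < Fintype.card ℬ := by omega
    nlinarith
  -- the action on blocks
  have hfaithB : FaithfulSMul G ℬ := by
    refine ⟨fun {g g'} hgg' => ?_⟩
    by_contra hne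
    apply no_kernel hqp L₀ hLne hLproper (g⁻¹ * g') (fun h1 => hne (inv_mul_eq_one.mp h1))
    intro k
    have := congrArg Subtype.val (hgg' ⟨k • L₀, MulAction.mem_orbit _ _⟩)
    rw [MulAction.orbit.coe_smul, MulAction.orbit.coe_smul] at this
    rw [mul_smul, ← this, inv_smul_smul]
  have hqpB : ∀ N : Subgroup G, N.Normal → N ≠ ⊥ → MulAction.IsPretransitive ↥N ℬ := by
    intro N hN hNne
    have htr := hqp N hN hNne
    refine ⟨fun L L' => ?_⟩
    obtain ⟨x, hx⟩ : (L : Finset Ω).Nonempty := by rw [← Finset.card_pos, hBcard]; omega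
    obtain ⟨y, hy⟩ : (L' : Finset Ω).Nonempty := by rw [← Finset.card_pos, hBcard]; omega
    obtain ⟨n, hn⟩ := htr.exists_smul_eq x y
    refine ⟨n, ?_⟩
    apply hBuniq _ _ y _ hy
    show y ∈ ((n : G) • L : ℬ).1
    rw [MulAction.orbit.coe_smul, ← hn]
    exact (Finset.smul_mem_smul_finset_iff (n : G)).mpr hx
  have hJB : JC G Γbᶜ := by
    intro L hL L' hL'
    have hL1 : (L : Finset Ω) ⊆ Γ := by
      have : L ∈ Γb := by simpa using hL
      rw [hΓb, Finset.mem_filter] at this; exact this.2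
    have hL'1 : (L' : Finset Ω) ⊆ Γ := by
      have : L' ∈ Γb := by simpa using hL'
      rw [hΓb, Finset.mem_filter] at this; exact this.2
    obtain ⟨x, hx⟩ : (L : Finset Ω).Nonempty := by rw [← Finset.card_pos, hBcard]; omega
    obtain ⟨y, hy⟩ : (L' : Finset Ω).Nonempty := by rw [← Finset.card_pos, hBcard]; omega
    obtain ⟨g, hg, hgxy⟩ := hJ x (by simpa using hL1 hx) y (by simpa using hL'1 hy)
    refine ⟨g, ?_, ?_⟩
    · intro M hM
      have hM1 : ¬ (M : Finset Ω) ⊆ Γ := by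
        intro hcon
        have : M ∈ Γb := by rw [hΓb, Finset.mem_filter]; exact ⟨Finset.mem_univ _, hcon⟩
        exact (Finset.mem_compl.mp hM) this
      have hM2 : (M : Finset Ω) ⊆ Γᶜ := (hBdich M).resolve_right hM1
      apply Subtype.ext
      rw [MulAction.orbit.coe_smul]
      exact smul_finset_eq_of_fix (fun z hz => hg z (hM2 hz))
    · apply hBuniq _ _ y _ hy
      rw [MulAction.orbit.coe_smul, ← hgxy]
      exact (Finset.smul_mem_smul_finset_iff g).mpr hx
  have hIH := IH ℬ hcardlt hqpB Γb hΓb2 hΓb3 hJB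
  -- two blocks outside Γ
  have hcomplb := Finset.card_compl Γb
  have hleb : Γb.card ≤ Fintype.card ℬ := Finset.card_le_univ _
  obtain ⟨B₁, hB₁, B₂, hB₂, hB₁₂⟩ := Finset.one_lt_card.mp (by omega : 1 < (Γbᶜ).card)
  have hB₄mem : B₄ ∈ Γb := by rw [hΓb, Finset.mem_filter]; exact ⟨Finset.mem_univ _, hB₄Γ⟩
  have hB₁₄ : B₁ ≠ B₄ := fun h1 => (Finset.mem_compl.mp hB₁) (h1 ▸ hB₄mem)
  have hB₂₄ : B₂ ≠ B₄ := fun h1 => (Finset.mem_compl.mp hB₂) (h1 ▸ hB₄mem)
  have hB₁Δ : (B₁ : Finset Ω) ⊆ Γᶜ := by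
    refine (hBdich B₁).resolve_right (fun hcon => ?_)
    exact (Finset.mem_compl.mp hB₁) (by rw [hΓb, Finset.mem_filter]; exact ⟨Finset.mem_univ _, hcon⟩)
  have hB₂Δ : (B₂ : Finset Ω) ⊆ Γᶜ := by
    refine (hBdich B₂).resolve_right (fun hcon => ?_)
    exact (Finset.mem_compl.mp hB₂) (by rw [hΓb, Finset.mem_filter]; exact ⟨Finset.mem_univ _, hcon⟩)
  obtain ⟨x, hx⟩ := hIH (swap B₁ B₂ * swap B₁ B₄) (by
    rw [Perm.sign_mul, Perm.sign_swap hB₁₂, Perm.sign_swap hB₁₄]; rfl)
  have hxB₁ : x • B₁ = B₄ := by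
    have := congrArg (fun f : Perm ℬ => f B₁) hx
    simp only [MulAction.toPerm_apply, Perm.mul_apply, swap_apply_left] at this
    rw [this, swap_apply_of_ne_of_ne hB₁₄.symm hB₂₄.symm]
  -- an element of the Jordan group moving a point of B₄ inside B₄
  obtain ⟨p, hp, q, hq, hpq⟩ := Finset.one_lt_card.mp
    (by rw [hBcard]; omega : 1 < (B₄ : Finset Ω).card)
  obtain ⟨h', hh', hh'pq⟩ := hJ p (by simpa using hB₄Γ hp) q (by simpa using hB₄Γ hq)
  have hh'B₁ : h' • B₁ = B₁ := by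
    apply Subtype.ext
    rw [MulAction.orbit.coe_smul]
    exact smul_finset_eq_of_fix (fun z hz => hh' z (hB₁Δ hz))
  have hh'B₂ : h' • B₂ = B₂ := by
    apply Subtype.ext
    rw [MulAction.orbit.coe_smul]
    exact smul_finset_eq_of_fix (fun z hz => hh' z (hB₂Δ hz))
  have hh'B₄ : h' • B₄ = B₄ := by
    apply hBuniq _ _ q _ hq
    rw [MulAction.orbit.coe_smul, ← hh'pq]
    exact (Finset.smul_mem_smul_finset_iff h').mpr hp
  have hcomm : h' * x * h'⁻¹ = x := by
    apply MulAction.toPerm_injective (α := G) (β := ℬ)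
    have e : MulAction.toPerm (h' * x * h'⁻¹) =
        (MulAction.toPerm h' : Perm ℬ) * MulAction.toPerm x * (MulAction.toPerm h')⁻¹ := by
      ext L
      simp [mul_smul]
    rw [e, hx]
    have e1 : swap B₁ B₂ = (MulAction.toPerm h' : Perm ℬ) * swap B₁ B₂ *
        (MulAction.toPerm h')⁻¹ := by
      rw [← swap_apply_apply]
      simp only [MulAction.toPerm_apply, hh'B₁, hh'B₂]
    have e2 : swap B₁ B₄ = (MulAction.toPerm h' : Perm ℬ) * swap B₁ B₄ *
        (MulAction.toPerm h')⁻¹ := by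
      rw [← swap_apply_apply]
      simp only [MulAction.toPerm_apply, hh'B₁, hh'B₄]
    conv_rhs => rw [e1, e2]
    group
  have hcomm' : h' * x = x * h' := by
    calc h' * x = (h' * x * h'⁻¹) * h' := by group
      _ = x * h' := by rw [hcomm]
  -- p = x • a with a ∈ B₁
  have hpx : p ∈ x • (B₁ : Finset Ω) := by
    rw [← MulAction.orbit.coe_smul, hxB₁]; exact hp
  obtain ⟨a', ha', rfl⟩ := Finset.mem_smul_finset.mp hpx
  have : h' • x • a' = x • a' := by
    rw [← mul_smul, hcomm', mul_smul, hh' a' (hB₁Δ ha')]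
  exact hpq (this.symm.trans hh'pq)

end Cfsg.Agent.Lib.Helper66.Mg
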