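import Cfsg.Agent.Lib.Helper66.MgCaseA
import Cfsg.Agent.Lib.Helper66.MgCaseB
import Cfsg.Agent.Lib.Helper66.MgHigh
import Cfsg.Agent.Lib.Helper66.MgOne

/-!
# Marggraf's theorem for quasiprimitive groups

A quasiprimitive group with a Jordan set `Γ`, `1 < |Γ| < n/2`, induces all even permutations.
-/

set_option autoImplicit false
set_option linter.unusedSectionVars false

namespace Cfsg.Agent.Lib.Helper66.Mg

open scoped Pointwise
open Equiv

universe u v

theorem marggraf_fin {G : Type u} [Group G] :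
    ∀ (n : ℕ) (Ω : Type v) [Fintype Ω] [DecidableEq Ω] [MulAction G Ω] [FaithfulSMul G Ω],
      Fintype.card Ω = n →
      (∀ N : Subgroup G, N.Normal → N ≠ ⊥ → MulAction.IsPretransitive ↥N Ω) →
      ∀ Γ : Finset Ω, 2 ≤ Γ.card → 2 * Γ.card < Fintype.card Ω → JC G Γᶜ →
      ∀ σ : Perm Ω, Perm.sign σ = 1 → ∃ x : G, MulAction.toPerm x = σ := by
  intro n
  induction n using Nat.strong_induction_on with
  | _ n ih =>
    intro Ω _ _ _ _ hn hqp Γ hΓ1 hΓ2 hJ
    classical
    by_cases hhigh : AllJ G Ω (Γᶜ.card + 1)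
    · exact high_trans Γ hΓ1 hΓ2 hhigh
    exfalso
    have hcompl := Finset.card_compl Γ
    have hle : Γ.card ≤ Fintype.card Ω := Finset.card_le_univ _
    have hex : ∃ j, ¬ AllJ G Ω (j + 1) := ⟨_, hhigh⟩
    set t := Nat.find hex with ht
    have ht1 : ¬ AllJ G Ω (t + 1) := Nat.find_spec hex
    have ht2 : ∀ j < t, AllJ G Ω (j + 1) := fun j hj =>
      by_contra (fun h => Nat.find_min hex hj h)
    have htle : t ≤ Γᶜ.card := Nat.find_min' hex hhigh
    -- `G` is transitive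
    obtain ⟨a, haΓ⟩ := Finset.card_pos.mp (by omega : 0 < Γ.card)
    obtain ⟨b, hbΓ, hba⟩ := Finset.exists_mem_ne (by omega : 1 < Γ.card) a
    obtain ⟨h, hh, hhab⟩ := hJ a (by simpa using haΓ) b (by simpa using hbΓ)
    have hh1 : h ≠ 1 := by
      rintro rfl
      rw [one_smul] at hhab
      exact hba hhab.symm
    have htop : (⊤ : Subgroup G) ≠ ⊥ := by
      intro hcon
      have : h ∈ (⊥ : Subgroup G) := hcon ▸ Subgroup.mem_top h
      exact hh1 (Subgroup.mem_bot.mp this)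
    have htr := hqp ⊤ inferInstance htop
    have hAll1 : AllJ G Ω 1 := by
      intro X hX a _ b _
      have hX0 : X = ∅ := Finset.card_eq_zero.mp (by omega)
      subst hX0
      obtain ⟨g, hg⟩ := htr.exists_smul_eq a b
      exact ⟨(g : G), by simp, hg⟩
    have htpos : 1 ≤ t := by
      by_contra hcon
      have : t = 0 := by omega
      rw [this] at ht1
      exact ht1 hAll1
    have hAllt : AllJ G Ω t := by
      obtain ⟨s, hs⟩ : ∃ s, t = s + 1 := ⟨t - 1, by omega⟩
      rw [hs]; exact ht2 s (by omega)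
    have hno : ∀ X : Finset Ω, X.card = t → ¬ JC G X := by
      unfold AllJ at ht1
      push Not at ht1
      obtain ⟨X₀, hX₀c, hX₀⟩ := ht1
      have hX₀t : X₀.card = t := by
        by_contra hne
        exact hX₀ (hAllt X₀ (by omega))
      intro X hX hJX
      obtain ⟨g, hg⟩ := homog' hAllt X X₀ (by omega) (by omega)
      exact hX₀ (hg ▸ hJX.smul g)
    obtain ⟨Sg, hSgΔ, hSgc⟩ := Finset.exists_subset_card_eq (show t - 1 ≤ Γᶜ.card by omega)
    have hexm : ∃ m, ∃ L : Finset Ω, JC G L ∧ Sg ⊆ L ∧ L ⊆ Γᶜ ∧ t ≤ L.card ∧ L.card = m :=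
      ⟨_, Γᶜ, hJ, hSgΔ, Finset.Subset.refl _, htle, rfl⟩
    obtain ⟨L₀, hL₀J, hSgL, hL₀Δ, hL₀t, hL₀m⟩ := Nat.find_spec hexm
    have hL₀min : ∀ L : Finset Ω, JC G L → Sg ⊆ L → L ⊆ Γᶜ → t ≤ L.card → L₀.card ≤ L.card :=
      fun L h1 h2 h3 h4 => by
        rw [hL₀m]; exact Nat.find_min' hexm ⟨L, h1, h2, h3, h4, rfl⟩
    have hL₀card : t + 1 ≤ L₀.card := by
      by_contra hcon
      exact hno L₀ (by omega) hL₀J
    have D : MinData G t Sg L₀ :=
      { hAll := hAllt
        hS := by omega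
        hSL := hSgL
        hL := hL₀J
        hLcard := hL₀card
        hmin := by
          intro Y hY h1 h2
          by_cases hYS : Y = Sg
          · exact Or.inl hYS
          right
          have hlt : Sg.card < Y.card :=
            Finset.card_lt_card (Finset.ssubset_iff_subset_ne.mpr ⟨h1, fun h => hYS h.symm⟩)
          have := hL₀min Y hY h1 (h2.trans hL₀Δ) (by omega)
          exact Finset.eq_of_subset_of_card_le h2 this }
    by_cases ht' : t = 1
    · have hSg0 : Sg = ∅ := Finset.card_eq_zero.mp (by omega)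
      have D' : MinData G 1 ∅ L₀ := by
        rw [ht', hSg0] at D; exact D
      exact D'.caseOne hqp Γ hΓ1 hΓ2 hJ hL₀Δ
        (fun Ω' _ _ _ _ hlt hqp' Γ' h1 h2 hJ' =>
          ih (Fintype.card Ω') (hn ▸ hlt) Ω' rfl hqp' Γ' h1 h2 hJ')
    · have ht2' : 2 ≤ t := by omega
      by_cases hB : 2 * L₀.card + 1 < Fintype.card Ω + t
      · exact D.caseB ht2' hB Γ hΓ1 hΓ2 hJ hL₀Δ
      · exact D.caseA ht2' (by omega) Γ hΓ1 hL₀Δ

/-- **Marggraf's theorem** for quasiprimitive groups, in the form of S3620. -/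
theorem marggraf {G : Type u} {Ω : Type v} [Group G] [MulAction G Ω] [FaithfulSMul G Ω]
    [Fintype Ω] [DecidableEq Ω]
    (hqp : ∀ N : Subgroup G, N.Normal → N ≠ ⊥ → MulAction.IsPretransitive ↥N Ω)
    (Γ : Set Ω) (hΓ1 : 1 < Γ.ncard) (hΓ2 : 2 * Γ.ncard < Fintype.card Ω)
    (hJ : MulAction.IsPretransitive ↥(fixingSubgroup G Γᶜ)
      ↥(SubMulAction.ofFixingSubgroup G Γᶜ)) :
    ∀ σ : Perm Ω, Perm.sign σ = 1 → ∃ x : G, (MulAction.toPerm x : Perm Ω) = σ := by
  classical
  have hcard : Γ.ncard = Γ.toFinset.card := Set.ncard_eq_toFinset_card' Γ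
  refine marggraf_fin (G := G) (Fintype.card Ω) Ω rfl hqp Γ.toFinset (by omega) (by omega) ?_
  intro a ha b hb
  have ha' : a ∈ Γ := by simpa using ha
  have hb' : b ∈ Γ := by simpa using hb
  have ha'' : a ∈ SubMulAction.ofFixingSubgroup G Γᶜ := by
    rw [SubMulAction.mem_ofFixingSubgroup_iff]; simpa using ha'
  have hb'' : b ∈ SubMulAction.ofFixingSubgroup G Γᶜ := by
    rw [SubMulAction.mem_ofFixingSubgroup_iff]; simpa using hb'
  obtain ⟨g, hg⟩ := hJ.exists_smul_eq ⟨a, ha''⟩ ⟨b, hb''⟩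
  refine ⟨(g : G), ?_, ?_⟩
  · intro x hx
    have hx' : x ∈ Γᶜ := by simpa using hx
    exact (mem_fixingSubgroup_iff G).mp g.2 x hx'
  · exact congrArg Subtype.val hg

end Cfsg.Agent.Lib.Helper66.Mg
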