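import Mathlib

set_option autoImplicit false

namespace Cfsg.Agent.Lib.Helper66

open scoped Pointwise

section TI

variable {G : Type*} [Group G]

/-- membership in a conjugate subgroup -/
theorem mem_conj_smul_iff (g x : G) (H : Subgroup G) :
    x ∈ MulAut.conj g • H ↔ g⁻¹ * x * g ∈ H := by
  rw [Subgroup.mem_pointwise_smul_iff_inv_smul_mem, MulAut.smul_def, MulAut.conj_inv_apply]

/-- the TI property: `H` meets its conjugates by elements outside its normalizer trivially -/
def SylTI (H : Subgroup G) : Prop :=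
  ∀ g : G, g ∉ Subgroup.normalizer (H : Set G) → H ⊓ (MulAut.conj g • H) = ⊥

/-- the TI property, elementwise -/
def ElTI (H : Subgroup G) : Prop :=
  ∀ g u : G, u ∈ H → u ≠ 1 → g⁻¹ * u * g ∈ H → g ∈ Subgroup.normalizer (H : Set G)

theorem sylTI_iff_elTI (H : Subgroup G) : SylTI H ↔ ElTI H := by
  constructor
  · intro h g u hu hu1 hgu
    by_contra hg
    have h1 := h g hg
    have h2 : u ∈ H ⊓ (MulAut.conj g • H) := ⟨hu, (mem_conj_smul_iff g u H).mpr hgu⟩
    rw [h1, Subgroup.mem_bot] at h2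
    exact hu1 h2
  · intro h g hg
    rw [eq_bot_iff]
    intro u hu
    rw [Subgroup.mem_bot]
    by_contra hu1
    exact hg (h g u hu.1 hu1 ((mem_conj_smul_iff g u H).mp hu.2))

/-- the normalizer of a conjugate -/
theorem mem_normalizer_conj_smul (h g : G) (H : Subgroup G)
    (hg : h⁻¹ * g * h ∈ Subgroup.normalizer (H : Set G)) :
    g ∈ Subgroup.normalizer ((MulAut.conj h • H : Subgroup G) : Set G) := by
  rw [Subgroup.mem_normalizer_iff] at hg ⊢
  intro k
  rw [mem_conj_smul_iff, mem_conj_smul_iff, hg (h⁻¹ * k * h)]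
  have : h⁻¹ * g * h * (h⁻¹ * k * h) * (h⁻¹ * g * h)⁻¹ = h⁻¹ * (g * k * g⁻¹) * h := by group
  rw [this]

theorem ElTI.conj {H : Subgroup G} (hH : ElTI H) (h : G) : ElTI (MulAut.conj h • H) := by
  intro g u hu hu1 hgu
  rw [mem_conj_smul_iff] at hu hgu
  apply mem_normalizer_conj_smul
  apply hH (h⁻¹ * g * h) (h⁻¹ * u * h) hu
  · intro h1
    apply hu1
    have : u = h * (h⁻¹ * u * h) * h⁻¹ := by group
    rw [this, h1]; group
  · have : (h⁻¹ * g * h)⁻¹ * (h⁻¹ * u * h) * (h⁻¹ * g * h) = h⁻¹ * (g⁻¹ * u * g) * h := by group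
    rw [this]; exact hgu

end TI

section quotient

variable {G : Type*} [Group G] [Finite G]

/-- the image of a TI Sylow subgroup modulo a normal `p'`-subgroup is TI -/
theorem ElTI.map_mk (p : ℕ) [Fact p.Prime] (P : Sylow p G) (hTI : ElTI (P : Subgroup G))
    (N : Subgroup G) [N.Normal] :
    ElTI ((P : Subgroup G).map (QuotientGroup.mk' N)) := by
  intro x y hy hy1 hx
  obtain ⟨g, rfl⟩ := QuotientGroup.mk_surjective x
  obtain ⟨u, hu, rfl⟩ := hy
  obtain ⟨v, hv, hvu⟩ := hx
  have hu1 : u ≠ 1 := by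
    rintro rfl
    exact hy1 (map_one _)
  -- `u` lies in `N ⊔ R` where `R` is the conjugate of `P` by `g`
  have hn0 : v⁻¹ * (g⁻¹ * u * g) ∈ N := by
    rw [← QuotientGroup.eq]
    exact hvu
  let R : Sylow p G := g • P
  have hR : (R : Subgroup G) = MulAut.conj g • (P : Subgroup G) := rfl
  let H : Subgroup G := N ⊔ (R : Subgroup G)
  have hRH : (R : Subgroup G) ≤ H := le_sup_right
  have huH : u ∈ H := by
    have h1 : u = (g * (v * (v⁻¹ * (g⁻¹ * u * g)) * v⁻¹) * g⁻¹) * (g * v * g⁻¹) := by group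
    rw [h1]
    apply Subgroup.mul_mem
    · apply Subgroup.mem_sup_left
      exact Subgroup.Normal.conj_mem inferInstance _
        (Subgroup.Normal.conj_mem inferInstance _ hn0 v) g
    · apply Subgroup.mem_sup_right
      rw [hR, mem_conj_smul_iff]
      have : g⁻¹ * (g * v * g⁻¹) * g = v := by group
      rw [this]; exact hv
  -- `u` generates a `p`-subgroup of `H`, contained in some Sylow subgroup of `H`
  have hS : IsPGroup p ((Subgroup.zpowers u).subgroupOf H) :=
    (P.isPGroup'.to_le ((Subgroup.zpowers_le).mpr hu)).comap_subtype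
  obtain ⟨T, hT⟩ := hS.exists_le_sylow
  obtain ⟨k, hk⟩ := MulAction.exists_smul_eq H (R.subtype hRH) T
  rw [Sylow.smul_subtype] at hk
  have huT : (⟨u, huH⟩ : H) ∈ (T : Subgroup H) := hT (by
    rw [Subgroup.mem_subgroupOf]
    exact Subgroup.mem_zpowers u)
  rw [← hk, Sylow.coe_subtype, Subgroup.mem_subgroupOf] at huT
  have huT' : u ∈ MulAut.conj (k : G) • (R : Subgroup G) := huT
  -- write `k = n * r`
  have hkH : (k : G) ∈ ((N ⊔ (R : Subgroup G) : Subgroup G) : Set G) := k.2
  rw [Subgroup.normal_mul] at hkH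
  obtain ⟨n, hn, r, hr, hnr⟩ := hkH
  have hr' : MulAut.conj r • (R : Subgroup G) = R := Subgroup.conj_smul_eq_self_of_mem hr
  rw [← hnr, map_mul, mul_smul, hr', hR, ← mul_smul, ← map_mul, mem_conj_smul_iff] at huT'
  have hng := hTI (n * g) u hu hu1 huT'
  have h2 : (QuotientGroup.mk' N) (n * g) ∈
      Subgroup.normalizer (((P : Subgroup G).map (QuotientGroup.mk' N) : Subgroup (G ⧸ N)) :
        Set (G ⧸ N)) :=
    Subgroup.le_normalizer_map _ ⟨n * g, hng, rfl⟩
  have h3 : (QuotientGroup.mk' N) (n * g) = (QuotientGroup.mk g : G ⧸ N) := by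
    rw [map_mul]
    have : (QuotientGroup.mk' N) n = 1 := (QuotientGroup.eq_one_iff n).mpr hn
    rw [this, one_mul]
    rfl
  rw [h3] at h2
  exact h2

end quotient

end Cfsg.Agent.Lib.Helper66
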